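import Cfsg.Agent.H410.BR.OmInst
import Cfsg.Agent.H146.KW.PslNum

/-!
# S4932, S4953 (unitary type): Sylow subgroups of the isometry groups

* `fx P`, `mv Q P` : the fixed space of a group `P` of isometries and its orthogonal complement;
* `Typ.dvd_card_X` : `p` divides `|X k|` if `orderOf q = 2 f ≤ k`;
* `no_ti` : a Sylow subgroup leaves invariant no totally singular subspace without fixed vectors.
-/

set_option autoImplicit false
set_option linter.unusedSectionVars false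

namespace Cfsg.Agent.H410.BD

open QuadraticMap Module Cfsg Cfsg.Agent.H2.Pol Cfsg.Agent.H410.BR Cfsg.Agent.H674.BR
open Cfsg.Agent.LieClassical.OrthCore Cfsg.Agent.LieClassical.OrthTrans

section Fix

variable {F V : Type*} [Field F] [AddCommGroup V] [Module F V]

/-- the fixed space -/
def fx (P : Subgroup (V ≃ₗ[F] V)) : Submodule F V where
  carrier := {v | ∀ g ∈ P, g v = v}
  add_mem' := by
    intro a b ha hb g hg
    rw [map_add, ha g hg, hb g hg]
  zero_mem' := fun g _ => map_zero g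
  smul_mem' := by
    intro c a ha g hg
    rw [map_smul, ha g hg]

theorem mem_fx {P : Subgroup (V ≃ₗ[F] V)} {v : V} : v ∈ fx P ↔ ∀ g ∈ P, g v = v := Iff.rfl

/-- the orthogonal complement of the fixed space -/
def mv (Q : QuadraticForm F V) (P : Subgroup (V ≃ₗ[F] V)) : Submodule F V := pp (polarBilin Q) (fx P)

theorem mem_mv {Q : QuadraticForm F V} {P : Subgroup (V ≃ₗ[F] V)} {v : V} :
    v ∈ mv Q P ↔ ∀ x ∈ fx P, polar Q v x = 0 := Iff.rfl

variable {Q : QuadraticForm F V}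

theorem polar_sum {ι : Type*} (s : Finset ι) (x : V) (f : ι → V) :
    polar Q x (∑ i ∈ s, f i) = ∑ i ∈ s, polar Q x (f i) := by
  have h1 := map_sum (polarBilin Q x) f s
  exact h1

/-- the fixed space of a group of order prime to the characteristic is nondegenerate -/
theorem nondeg_fx (hQ : Nondeg Q) {P : Subgroup (V ≃ₗ[F] V)} [Finite P] (hP : P ≤ O Q)
    (hc : (Nat.card P : F) ≠ 0) {x : V} (hx : x ∈ fx P) (h : ∀ y ∈ fx P, polar Q x y = 0) : x = 0 := by
  have := Fintype.ofFinite P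
  apply hQ
  intro v
  have h1 : ∑ g : P, (g : V ≃ₗ[F] V) v ∈ fx P := by
    intro g hg
    rw [map_sum]
    exact Fintype.sum_equiv (Equiv.mulLeft (⟨g, hg⟩ : P)) _ _ fun _ => rfl
  have h2 := h _ h1
  rw [polar_sum] at h2
  have h3 : ∀ g : P, polar Q x ((g : V ≃ₗ[F] V) v) = polar Q x v := by
    intro g
    have h4 := polar_map (hP g.2) x v
    rwa [hx _ g.2] at h4
  rw [Finset.sum_congr rfl fun g _ => h3 g, Finset.sum_const, Finset.card_univ, nsmul_eq_mul,
    ← Nat.card_eq_fintype_card] at h2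
  exact (mul_eq_zero.1 h2).resolve_left hc

theorem disjoint_fx_mv (hQ : Nondeg Q) {P : Subgroup (V ≃ₗ[F] V)} [Finite P] (hP : P ≤ O Q)
    (hc : (Nat.card P : F) ≠ 0) : Disjoint (fx P) (mv Q P) := by
  rw [Submodule.disjoint_def]
  intro x hx hx'
  exact nondeg_fx hQ hP hc hx fun y hy => hx' y hy

theorem sup_fx_mv [FiniteDimensional F V] (hQ : Nondeg Q) {P : Subgroup (V ≃ₗ[F] V)} [Finite P] (hP : P ≤ O Q)
    (hc : (Nat.card P : F) ≠ 0) : fx P ⊔ mv Q P = ⊤ := by
  apply Submodule.eq_top_of_disjoint _ _ _ (disjoint_fx_mv hQ hP hc)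
  have h1 := finrank_pp hQ (fx P)
  unfold mv
  omega

theorem nondeg_mv [FiniteDimensional F V] (hQ : Nondeg Q) {P : Subgroup (V ≃ₗ[F] V)} [Finite P] (hP : P ≤ O Q)
    (hc : (Nat.card P : F) ≠ 0) {x : V} (hx : x ∈ mv Q P) (h : ∀ y ∈ mv Q P, polar Q x y = 0) : x = 0 := by
  apply hQ
  intro v
  have h1 : v ∈ fx P ⊔ mv Q P := by
    rw [sup_fx_mv hQ hP hc]
    trivial
  obtain ⟨a, ha, b, hb, rfl⟩ := Submodule.mem_sup.1 h1
  rw [polar_add_right, mem_mv.1 hx a ha, h b hb, add_zero]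

theorem map_mem_mv {P : Subgroup (V ≃ₗ[F] V)} (hP : P ≤ O Q) {g : V ≃ₗ[F] V} (hg : g ∈ P) {v : V}
    (hv : v ∈ mv Q P) : g v ∈ mv Q P := by
  intro x hx
  have h1 := polar_map (hP hg) v x
  rw [hx g hg] at h1
  exact h1.trans (hv x hx)

theorem eq_zero_of_fixed (hQ : Nondeg Q) {P : Subgroup (V ≃ₗ[F] V)} [Finite P] (hP : P ≤ O Q)
    (hc : (Nat.card P : F) ≠ 0) {v : V} (hv : v ∈ mv Q P) (h : ∀ g ∈ P, g v = v) : v = 0 :=
  (Submodule.disjoint_def.1 (disjoint_fx_mv hQ hP hc)) v h hv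

/-- the number of vectors of an invariant subspace without fixed vectors -/
theorem card_modEq_one [Finite V] {p : ℕ} [hp : Fact p.Prime] {P : Subgroup (V ≃ₗ[F] V)} (hP : IsPGroup p P)
    (W : Submodule F V) (hinv : ∀ g ∈ P, ∀ v ∈ W, g v ∈ W) (hfix : ∀ v ∈ W, (∀ g ∈ P, g v = v) → v = 0) :
    Nat.card W ≡ 1 [MOD p] := by
  let _ : MulAction P W :=
    { smul := fun g v => ⟨(g : V ≃ₗ[F] V) v.1, hinv _ g.2 _ v.2⟩
      one_smul := fun v => rfl
      mul_smul := fun g h v => rfl }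
  have h1 := hP.card_modEq_card_fixedPoints W
  have h2 : Nat.card (MulAction.fixedPoints P W) = 1 := by
    rw [Nat.card_eq_one_iff_exists]
    refine ⟨⟨0, fun g => Subtype.ext (map_zero (g : V ≃ₗ[F] V))⟩, ?_⟩
    rintro ⟨v, hv⟩
    apply Subtype.ext
    apply Subtype.ext
    exact hfix v.1 v.2 fun g hg => congrArg Subtype.val (hv ⟨g, hg⟩)
  rwa [h2] at h1

theorem order_dvd_finrank [Finite F] [Finite V] {p : ℕ} [hp : Fact p.Prime] {P : Subgroup (V ≃ₗ[F] V)}
    (hP : IsPGroup p P) (W : Submodule F V) (hinv : ∀ g ∈ P, ∀ v ∈ W, g v ∈ W)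
    (hfix : ∀ v ∈ W, (∀ g ∈ P, g v = v) → v = 0) : orderOf (Nat.card F : ZMod p) ∣ finrank F W := by
  have h1 := card_modEq_one hP W hinv hfix
  have : Module.Finite F W := Module.Finite.of_finite
  have h2 : Nat.card W = Nat.card F ^ finrank F W := by
    have := Fintype.ofFinite F
    have := Fintype.ofFinite W
    rw [Nat.card_eq_fintype_card, Nat.card_eq_fintype_card]
    exact Module.card_eq_pow_finrank
  rw [h2, ← ZMod.natCast_eq_natCast_iff] at h1
  apply orderOf_dvd_of_pow_eq_one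
  push_cast at h1
  exact h1

end Fix

section Arith

open Finset Cfsg.Agent.H146.KW.Psl

theorem gam_eq (q : ℕ) {k w : ℕ} (hk : k ≤ w) :
    gam q w = (∏ i ∈ range k, (q ^ (w - i) - 1)) * gam q (w - k) := by
  induction k with
  | zero => simp
  | succ k ih =>
    rw [ih (by omega), prod_range_succ, mul_assoc]
    congr 1
    obtain ⟨j, hj⟩ : ∃ j, w - k = j + 1 := ⟨w - k - 1, by omega⟩
    rw [hj, gam_succ, show w - (k + 1) = j by omega, mul_comm]

theorem exists_gbin {q : ℕ} (hq : 2 ≤ q) {k w : ℕ} (hk : k ≤ w) :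
    ∃ c, ∏ i ∈ range k, (q ^ (w - i) - 1) = c * ∏ i ∈ range k, (q ^ (i + 1) - 1) := by
  refine ⟨gbin q k (w - k), ?_⟩
  have h1 := gbin_mul hq k (w - k)
  rw [Nat.add_sub_cancel' hk, gam_eq q hk] at h1
  exact (Nat.eq_of_mul_eq_mul_right (gam_pos hq _) h1).symm

/-- an odd multiple of `f` among `2 f` consecutive numbers -/
theorem exists_odd_mul {f : ℕ} (hf : 0 < f) (s : ℕ) : ∃ t a, s ≤ t ∧ t < s + 2 * f ∧ t = (2 * a + 1) * f := by
  have h1 := Nat.div_add_mod s (2 * f)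
  have h2 := Nat.mod_lt s (show 0 < 2 * f by omega)
  set a := s / (2 * f)
  set r := s % (2 * f)
  by_cases hr : r ≤ f
  · refine ⟨(2 * a + 1) * f, a, ?_, ?_, rfl⟩
    · have : (2 * a + 1) * f = 2 * f * a + f := by ring
      omega
    · have : (2 * a + 1) * f = 2 * f * a + f := by ring
      omega
  · refine ⟨(2 * (a + 1) + 1) * f, a + 1, ?_, ?_, rfl⟩
    · have : (2 * (a + 1) + 1) * f = 2 * f * a + 3 * f := by ring
      omega
    · have : (2 * (a + 1) + 1) * f = 2 * f * a + 3 * f := by ring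
      omega

end Arith

section Card

variable {F V : Type*} [Field F] [Fintype F] [AddCommGroup V] [Module F V] [FiniteDimensional F V]
  {Q : QuadraticForm F V} {w ε : ℕ} {p : ℕ} [hp : Fact p.Prime]

theorem dvd_card_X (h : Typ Q w ε) {f : ℕ} (hf : 0 < f) (he : orderOf (Nat.card F : ZMod p) = 2 * f) {k : ℕ}
    (hk : 2 * f ≤ k) (hkw : k ≤ w) : p ∣ Nat.card ((quadPol Q).X k) := by
  have hq : 2 ≤ Nat.card F := Finite.one_lt_card
  have h1 := h.card_X hkw
  obtain ⟨c, hc⟩ := exists_gbin hq hkw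
  rw [Finset.prod_mul_distrib, hc] at h1
  have h2 : 0 < ∏ i ∈ Finset.range k, (Nat.card F ^ (i + 1) - 1) := H146.KW.Psl.gam_pos hq k
  have h3 : Nat.card ((quadPol Q).X k) = c * ∏ i ∈ Finset.range k, (Nat.card F ^ (w - 1 - i + ε) + 1) := by
    apply Nat.eq_of_mul_eq_mul_right h2
    rw [h1]
    ring
  rw [h3]
  refine Dvd.dvd.mul_left ?_ _
  obtain ⟨t, a, ht1, ht2, ht3⟩ := exists_odd_mul hf (w - k + ε)
  have h4 : p ∣ Nat.card F ^ (w - 1 - (w - 1 + ε - t) + ε) + 1 := by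
    rw [show w - 1 - (w - 1 + ε - t) + ε = (2 * a + 1) * f by omega]
    exact H31.BR.Arith.dvd_add_one_of he hf ⟨a, rfl⟩
  exact h4.trans (Finset.dvd_prod_of_mem (fun i => Nat.card F ^ (w - 1 - i + ε) + 1)
    (Finset.mem_range.2 (by omega)))

end Card

section Sylow

variable {F V : Type*} [Field F] [Fintype F] [AddCommGroup V] [Module F V] [Finite V] [FiniteDimensional F V]
  {Q : QuadraticForm F V} {w ε : ℕ} {p : ℕ} [hp : Fact p.Prime]

instance finite_gl : Finite (V ≃ₗ[F] V) := Finite.of_injective (fun g : V ≃ₗ[F] V => (g : V → V)) DFunLike.coe_injective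

/-- the action of the isometry group -/
theorem o_acts (Q : QuadraticForm F V) : Acts (quadPol Q) (O Q).subtype where
  sing g v hv := by
    have h1 : Q ((g : V ≃ₗ[F] V) v) = Q v := mem_O.1 g.2 v
    show Q ((g : V ≃ₗ[F] V) v) = 0
    rw [h1]
    exact hv
  orth g x y h := (polar_map g.2 x y).trans h

/-- the Sylow subgroup as a group of linear maps -/
def syl (P : Sylow p (O Q)) : Subgroup (V ≃ₗ[F] V) := (P : Subgroup (O Q)).map (O Q).subtype

theorem syl_le (P : Sylow p (O Q)) : syl P ≤ O Q := by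
  rintro _ ⟨g, -, rfl⟩
  exact g.2

theorem syl_isPGroup (P : Sylow p (O Q)) : IsPGroup p (syl P) := P.isPGroup'.map _

theorem no_ti (h : Typ Q w ε) {f : ℕ} (hf : 0 < f) (he : orderOf (Nat.card F : ZMod p) = 2 * f) (P : Sylow p (O Q))
    {U : Submodule F V} (hU : (quadPol Q).TI U) (hinv : ∀ g ∈ syl P, ∀ v ∈ U, g v ∈ U)
    (hfix : ∀ v ∈ U, (∀ g ∈ syl P, g v = v) → v = 0) : U = ⊥ := by
  by_contra hne
  have h1 := order_dvd_finrank (syl_isPGroup P) U hinv hfix
  rw [he] at h1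
  have h2 : 0 < finrank F U := Nat.pos_of_ne_zero fun h0 => hne (Submodule.finrank_eq_zero.1 h0)
  have h3 := Nat.le_of_dvd h2 h1
  have h4 := h.index hU
  have h5 := dvd_card_X h hf he h3 h4
  let _ := (o_acts Q).mulAction (finrank F U)
  have htr : MulAction.IsPretransitive (O Q) ((quadPol Q).X (finrank F U)) := by
    refine ⟨fun W W' => ?_⟩
    have hb := (quadPol Q).TI_bot
    obtain ⟨g, hg, hg1, -⟩ := witt_pair_O h.nondeg W.2.1 hb W'.2.1 hb (W.2.2.trans W'.2.2.symm) rfl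
      (by rw [inf_bot_eq, inf_bot_eq]) (by rw [bot_inf_eq, bot_inf_eq])
    exact ⟨⟨g, hg⟩, Subtype.ext hg1⟩
  let U0 : (quadPol Q).X (finrank F U) := ⟨U, hU, rfl⟩
  have h6 : (MulAction.stabilizer (O Q) U0).index = Nat.card ((quadPol Q).X (finrank F U)) :=
    MulAction.index_stabilizer_of_transitive (O Q) U0
  have h7 : (P : Subgroup (O Q)) ≤ MulAction.stabilizer (O Q) U0 := by
    intro g hg
    rw [MulAction.mem_stabilizer_iff]
    apply Subtype.ext
    show U.map ((g : V ≃ₗ[F] V) : V →ₗ[F] V) = U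
    apply map_eq_of_le
    rintro _ ⟨x, hx, rfl⟩
    exact hinv _ ⟨g, hg, rfl⟩ x hx
  have h8 := Subgroup.index_dvd_of_le h7
  rw [h6] at h8
  exact P.not_dvd_index (h5.trans h8)

end Sylow

end Cfsg.Agent.H410.BD
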