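import Cfsg.Agent.H410.BR.OmReg

/-!
# S4932, S4953: a subgroup of index divisible by 3 in `Ω₂₀^-(2)` (helper410)
-/

set_option autoImplicit false

namespace Cfsg.Agent.H410.BD

open Cfsg Module Cfsg.Agent.H2.Pol Cfsg.Agent.H410.BR Cfsg.Agent.H674.BR
open Cfsg.Agent.LieClassical.OrthForms Cfsg.Agent.LieClassical.OrthTrans

/-- the stabilizer in `POmega F Q` of a totally singular subspace of dimension `k` -/
theorem exists_index {F : Type} [Field F] [Fintype F] {ι : Type} [Fintype ι] [DecidableEq ι]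
    {Q : QuadraticForm F (ι → F)} {w ε : ℕ} (h : Typ Q w ε) (hG : Good Q) {k : ℕ} (hk : k ≤ w) (hd : ε ≠ 0 ∨ k < w) :
    ∃ H : Subgroup (POmega F ⇑Q), H.index = Nat.card ((quadPol Q).X k) := by
  have hM := om_model hG
  let _ := hM.mulAction k
  have htr : MulAction.IsPretransitive (POmega F ⇑Q) ((quadPol Q).X k) :=
    hM.pretransitive k fun U W => om_trans h hG hd U W
  have hpos := h.card_X_pos hk
  obtain ⟨U⟩ : Nonempty ((quadPol Q).X k) := by
    by_contra hcon
    rw [not_nonempty_iff] at hcon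
    rw [Nat.card_of_isEmpty] at hpos
    exact lt_irrefl _ hpos
  exact ⟨MulAction.stabilizer (POmega F ⇑Q) U, MulAction.index_stabilizer_of_transitive (POmega F ⇑Q) U⟩

/-- `Ω₂₀^-(2)` -/
theorem exists_index_twenty {F : Type} [Field F] [Fintype F] (hF : Fintype.card F = 2) (a b : F)
    (hab : ∀ z₁ z₂ : F, z₁ ^ 2 + a * z₁ * z₂ + b * z₂ ^ 2 = 0 → z₁ = 0 ∧ z₂ = 0) :
    ∃ H : Subgroup (POmega F (quadFormMinus 9 F a b)), 3 ∣ H.index ∧ H.index = 22839208875 := by
  have h := typ_minus F a b hab (m := 9) (by norm_num)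
  have hG : Good (minusForm 9 F a b) := h.good (by
    rw [Fintype.card_sum, Fintype.card_sum, Fintype.card_fin, Fintype.card_fin]
    norm_num)
  obtain ⟨H, hH⟩ := exists_index h hG (k := 2) (by norm_num) (Or.inl (by norm_num))
  have hq : Nat.card F = 2 := by rw [Nat.card_eq_fintype_card, hF]
  have h1 := h.card_X (k := 2) (by norm_num)
  rw [hq, Finset.prod_range_succ, Finset.prod_range_succ, Finset.prod_range_zero, Finset.prod_range_succ,
    Finset.prod_range_succ, Finset.prod_range_zero] at h1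
  have h2 : Nat.card ((quadPol (minusForm 9 F a b)).X 2) = 22839208875 := by
    apply Nat.eq_of_mul_eq_mul_right (show 0 < 1 * (2 ^ (0 + 1) - 1) * (2 ^ (1 + 1) - 1) by norm_num)
    rw [h1]
    norm_num
  rw [← coe_minusForm]
  refine ⟨H, ?_, ?_⟩
  · rw [hH, h2]
    norm_num
  · rw [hH, h2]

end Cfsg.Agent.H410.BD
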