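import Cfsg.Agent.H410.BD.Fix
import Cfsg.Agent.GenOrth.Normal
import Cfsg.Agent.S0286
import Cfsg.Agent.S0287
import Cfsg.Agent.S0288

/-!
# S4932, S4953, row `POmega`, unitary type (`orderOf q = 2 f` modulo `p`)

`exists_unitary` : a subspace of codimension at most `2 f` is of plus or minus type and carries a `p`-group of
isometries (in `Omega`) without fixed vectors and without invariant totally singular subspaces.
-/

set_option autoImplicit false
set_option linter.unusedSectionVars false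

namespace Cfsg.Agent.H410.BD

open QuadraticMap Module Cfsg Cfsg.Agent.H2.Pol Cfsg.Agent.H410.BR Cfsg.Agent.H674.BR Cfsg.Agent.GenOrth
open Cfsg.Agent.LieClassical Cfsg.Agent.LieClassical.OrthCore Cfsg.Agent.LieClassical.OrthTrans
  Cfsg.Agent.LieClassical.OrthFinite Cfsg.Agent.LieClassical.OrthForms

section Ext

variable {F V V' : Type*} [Field F] [AddCommGroup V] [Module F V] [AddCommGroup V'] [Module F V']
  {Q : QuadraticForm F V} {Q' : QuadraticForm F V'}

theorem ext_mem_O (e : Emb Q Q') {g : V' ≃ₗ[F] V'} (hg : g ∈ O Q') : e.ext g ∈ O Q := by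
  intro v
  have h1 : ∀ x : V', polar Q (v - e.j (e.π v)) (e.j x) = 0 := by
    intro x
    rw [polar_sub_left, polar_comm Q v, e.adj, e.polar_j, polar_comm Q' x, sub_self]
  have h2 : e.ext g v = (v - e.j (e.π v)) + e.j (g (e.π v)) := by
    rw [e.ext_apply, map_sub]
    abel
  have h3 : v = (v - e.j (e.π v)) + e.j (e.π v) := by abel
  rw [h2, Q_add, h1, e.hQ, mem_O.1 hg]
  conv_rhs => rw [h3, Q_add, h1, e.hQ]

/-- an isometry fixing the image of `j` commutes with the extensions -/
theorem comm_ext (e : Emb Q Q') (g : V' ≃ₗ[F] V') {h : V ≃ₗ[F] V} (hh : h ∈ O Q)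
    (hj : ∀ x, h (e.j x) = e.j x) : h * e.ext g = e.ext g * h := by
  ext v
  show h (e.ext g v) = e.ext g (h v)
  have h1 : e.π (h v) = e.π v := by
    have h2 : e.π (h v) - e.π v = 0 := by
      apply e.nd
      intro x
      rw [polar_comm, polar_sub_right]
      apply mul_left_cancel₀ e.hc
      rw [mul_zero, mul_sub, ← e.adj, ← e.adj, ← polar_map hh (e.j x) v, hj, sub_self]
    exact sub_eq_zero.1 h2
  rw [e.ext_apply, e.ext_apply, h1, map_add, hj]

end Ext

section Sylow

variable {F : Type} {V : Type*} [Field F] [Fintype F] [AddCommGroup V] [Module F V] [Finite V] [FiniteDimensional F V]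
  {Q : QuadraticForm F V} {w ε : ℕ} {p : ℕ} [hp : Fact p.Prime]

/-- the fixed space of a Sylow subgroup carries no isometries of order `p` -/
theorem not_dvd_of_sim (P : Sylow p (O Q)) {κ : Type} [Fintype κ] [DecidableEq κ] {Q' : QuadraticForm F (κ → F)}
    (nd : Nondeg Q') (hs : Sim (Q.comp (fx (syl P)).subtype) ⇑Q') : ¬ p ∣ Nat.card (isometryGroup F ⇑Q') := by
  intro hd
  obtain ⟨c, hc, j, hj⟩ := hs
  obtain ⟨e, he⟩ : ∃ e : Emb Q Q', ∀ x, e.j x = (j x : V) :=
    ⟨ofLin ((fx (syl P)).subtype ∘ₗ j.toLinearMap) c hc hj nd, fun _ => rfl⟩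
  obtain ⟨z', hz'⟩ := exists_prime_orderOf_dvd_card' p hd
  have hz1 : e.ext (isometryHom Q' z') ∈ O Q := ext_mem_O e (iso_mem_O z')
  set z : O Q := ⟨e.ext (isometryHom Q' z'), hz1⟩ with hz
  have hzp : z ^ p = 1 := by
    apply Subtype.ext
    show (e.ext (isometryHom Q' z')) ^ p = 1
    rw [← map_pow, ← map_pow, ← hz', pow_orderOf_eq_one, map_one, map_one]
  have hcomm : ∀ g ∈ (P : Subgroup (O Q)), g * z = z * g := by
    intro g hg
    apply Subtype.ext
    apply comm_ext e _ g.2
    intro x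
    rw [he]
    exact (j x).2 _ ⟨g, hg, rfl⟩
  have hpg : IsPGroup p (Subgroup.zpowers z) := by
    rcases eq_or_ne z 1 with h1 | h1
    · apply IsPGroup.of_card (n := 0)
      rw [Nat.card_zpowers, h1, orderOf_one, pow_zero]
    · apply IsPGroup.of_card (n := 1)
      rw [Nat.card_zpowers, pow_one]
      exact orderOf_eq_prime hzp h1
  have hmem : z ∈ (P : Subgroup (O Q)) := by
    have h1 := hpg.inf_normalizer_sylow P
    have h2 : z ∈ Subgroup.zpowers z ⊓ (P : Subgroup (O Q)) := by
      rw [← h1]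
      refine Subgroup.mem_inf.2 ⟨Subgroup.mem_zpowers z, ?_⟩
      rw [Subgroup.mem_set_normalizer_iff]
      intro g
      constructor
      · intro hg
        have h3 := hcomm g hg
        have h4 : z * g * z⁻¹ = g := by rw [← h3, mul_inv_cancel_right]
        show z * g * z⁻¹ ∈ (P : Subgroup (O Q))
        rw [h4]
        exact hg
      · intro hg
        have h3 := hcomm _ hg
        have h4 : z * g * z⁻¹ = g := by
          have h5 : z * g = z * (z * g * z⁻¹) := by rw [← h3, inv_mul_cancel_right]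
          exact (mul_left_cancel h5).symm
        have hg' : z * g * z⁻¹ ∈ (P : Subgroup (O Q)) := hg
        rw [h4] at hg'
        exact hg'
    exact (Subgroup.mem_inf.1 h2).2
  have hz1 : z' = 1 := by
    apply isometryHom_injective Q'
    ext1 x
    rw [map_one]
    show isometryHom Q' z' x = x
    apply e.j_injective
    rw [← e.ext_j, he]
    exact (j x).2 _ ⟨z, hmem, rfl⟩
  rw [hz1, orderOf_one] at hz'
  exact hp.out.one_lt.ne hz'

theorem dvd_prod {q m f : ℕ} (hq : 0 < q) (hf : 0 < f) (he : orderOf (q : ZMod p) = 2 * f) (hm : f ≤ m) :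
    p ∣ ∏ i ∈ Finset.range m, (q ^ (2 * (i + 1)) - 1) := by
  have h1 : p ∣ q ^ (2 * (f - 1 + 1)) - 1 := by
    rw [H31.BR.Arith.dvd_sub_one hq, he, Nat.sub_add_cancel hf]
  exact h1.trans (Finset.dvd_prod_of_mem (fun i => q ^ (2 * (i + 1)) - 1) (Finset.mem_range.2 (by omega)))

/-- in characteristic two the odd dimensional forms are degenerate -/
theorem two_ne_of_sim {W : Type*} [AddCommGroup W] [Module F W] {R : QuadraticForm F W} (hR : Nondeg R) {k : ℕ}
    (hs : Sim R (quadFormOdd k F)) : (2 : F) ≠ 0 := by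
  intro h2
  obtain ⟨c, hc, j, hj⟩ := hs
  have h1 : j (Pi.single (Sum.inl ()) 1) = 0 := by
    apply hR
    intro y
    obtain ⟨y, rfl⟩ := j.surjective y
    have h3 : polar R (j (Pi.single (Sum.inl ()) 1)) (j y) = c * polar (oddForm k F) (Pi.single (Sum.inl ()) 1) y := by
      simp only [polar, ← map_add, hj, coe_oddForm]
      ring
    rw [h3, polar_oddForm]
    simp [h2]
  have h4 := j.map_eq_zero_iff.1 h1
  have h5 := congrFun h4 (Sum.inl ())
  simp at h5

/-- the fixed space of a Sylow subgroup is small -/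
theorem finrank_fx_le (hQ : Nondeg Q) {f : ℕ} (hf : 0 < f) (he : orderOf (Nat.card F : ZMod p) = 2 * f)
    (P : Sylow p (O Q)) (hc : (Nat.card (syl P) : F) ≠ 0) : finrank F (fx (syl P)) ≤ 2 * f := by
  by_contra hcon
  push Not at hcon
  have hq : 0 < Nat.card F := Nat.card_pos
  have hnd : Nondeg (Q.comp (fx (syl P)).subtype) := by
    intro x hx
    apply Subtype.ext
    apply nondeg_fx hQ (syl_le P) hc x.2
    intro y hy
    exact hx ⟨y, hy⟩
  rcases normal_form _ hnd rfl with ⟨k, hk, hs⟩ | ⟨k, hk, hs⟩ | ⟨k, hk, a, b, hab, hs⟩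
  · have h2 := two_ne_of_sim hnd hs
    refine not_dvd_of_sim P (Q' := oddForm k F) (nondeg_oddForm k F h2) (by rwa [coe_oddForm]) ?_
    have hodd : Odd (Nat.card F) := by
      rw [← Nat.not_even_iff_odd]
      intro h
      apply h2
      rw [even_iff_two_dvd] at h
      obtain ⟨t, ht⟩ := h
      have h3 : (Nat.card F : F) = 0 := by
        rw [Nat.card_eq_fintype_card]
        exact FiniteField.cast_card_eq_zero F
      have h5 : ringChar F ∣ Fintype.card F := by
        rw [← ringChar.spec, FiniteField.cast_card_eq_zero]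
      obtain ⟨n, hn, hn'⟩ := FiniteField.card F (ringChar F)
      have h6 : 2 ∣ ringChar F := by
        have h7 : 2 ∣ Fintype.card F := by
          rw [← Nat.card_eq_fintype_card, ht]
          exact dvd_mul_right 2 t
        rw [hn'] at h7
        exact Nat.prime_two.dvd_of_dvd_pow h7
      have h8 := (Nat.prime_dvd_prime_iff_eq Nat.prime_two hn).1 h6
      have h9 := (ringChar.spec F 2).2 (by rw [← h8])
      exact_mod_cast h9
    rw [coe_oddForm, S0286.result (F := F) (q := Nat.card F) (Nat.card_eq_fintype_card.symm) hodd k]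
    exact (dvd_prod hq hf he (by omega)).mul_left _
  · refine not_dvd_of_sim P (Q' := plusForm k F) (nondeg_plusForm k F) (by rwa [coe_plusForm]) ?_
    rw [coe_plusForm, S0287.result (F := F) (q := Nat.card F) (Nat.card_eq_fintype_card.symm) k (by omega)]
    exact (dvd_prod hq hf he (by omega)).mul_left _
  · refine not_dvd_of_sim P (Q' := minusForm k F a b) (nondeg_minusForm k F a b hab) (by rwa [coe_minusForm]) ?_
    have h1 := S0288.result (F := F) (q := Nat.card F) (Nat.card_eq_fintype_card.symm) (k + 1) (by omega) a b hab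
    rw [Nat.add_sub_cancel] at h1
    rw [coe_minusForm, h1]
    exact (dvd_prod hq hf he (by omega)).mul_left _

/-- the singular vectors modulo `p` -/
theorem card_sing_modEq (P : Sylow p (O Q)) :
    Nat.card {v : V // Q v = 0} ≡ Nat.card {v : fx (syl P) // Q (v : V) = 0} [MOD p] := by
  let _ : MulAction (syl P) {v : V // Q v = 0} :=
    { smul := fun g v => ⟨(g : V ≃ₗ[F] V) v.1, by rw [mem_O.1 (syl_le P g.2)]; exact v.2⟩
      one_smul := fun v => rfl
      mul_smul := fun g h v => rfl }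
  have h1 := (syl_isPGroup P).card_modEq_card_fixedPoints {v : V // Q v = 0}
  have h2 : Nat.card (MulAction.fixedPoints (syl P) {v : V // Q v = 0}) =
      Nat.card {v : fx (syl P) // Q (v : V) = 0} := by
    refine Nat.card_congr
      { toFun := fun v => ⟨⟨v.1.1, fun g hg => congrArg Subtype.val (v.2 ⟨g, hg⟩)⟩, v.1.2⟩
        invFun := fun v => ⟨⟨v.1.1, v.2⟩, fun g => Subtype.ext (v.1.2 _ g.2)⟩
        left_inv := fun v => rfl
        right_inv := fun v => rfl }
  rwa [h2] at h1

/-- if the fixed space of a Sylow subgroup has dimension `2 f`, the number of nonzero singular vectors is prime to `p` -/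
theorem not_dvd_sing (hp2 : p ≠ 2) (h : Typ Q w ε) {f : ℕ} (hf : 0 < f)
    (he : orderOf (Nat.card F : ZMod p) = 2 * f)
    (P : Sylow p (O Q)) (hc : (Nat.card (syl P) : F) ≠ 0) (hd : finrank F (fx (syl P)) = 2 * f) :
    ¬ p ∣ (Nat.card F ^ w - 1) * (Nat.card F ^ (w - 1 + ε) + 1) := by
  intro hdvd
  have hq : 0 < Nat.card F := Nat.card_pos
  have h1 := card_sing_modEq P
  rw [h.card] at h1
  have hnd : Nondeg (Q.comp (fx (syl P)).subtype) := by
    intro x hx
    apply Subtype.ext
    apply nondeg_fx h.nondeg (syl_le P) hc x.2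
    intro y hy
    exact hx ⟨y, hy⟩
  rcases normal_form _ hnd rfl with ⟨k, hk, hs⟩ | ⟨k, hk, hs⟩ | ⟨k, hk, a, b, hab, hs⟩
  · omega
  · obtain rfl : k = f := by omega
    -- the number of singular vectors of the fixed space
    have h2 : Nat.card {v : fx (syl P) // Q (v : V) = 0} = (Nat.card F ^ k - 1) * (Nat.card F ^ (k - 1) + 1) + 1 := by
      have h3 := (typ_plus (F := F) (m := k) hf).card
      rw [add_zero] at h3
      rw [← h3]
      obtain ⟨c, hc0, j, hj⟩ := hs
      refine Nat.card_congr (Equiv.subtypeEquiv j.symm.toEquiv fun v => ?_)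
      obtain ⟨x, rfl⟩ := j.surjective v
      have h4 : Q (j x : V) = c * quadFormPlus k F x := hj x
      have h5 : j.symm.toEquiv (j x) = x := j.symm_apply_apply x
      rw [h5, h4, coe_plusForm, mul_eq_zero]
      exact ⟨fun h => h.resolve_left hc0, Or.inr⟩
    rw [h2] at h1
    have h6 : (Nat.card F ^ w - 1) * (Nat.card F ^ (w - 1 + ε) + 1) + 1 ≡ 0 + 1 [MOD p] :=
      Nat.ModEq.add_right 1 ((Nat.modEq_zero_iff_dvd).2 hdvd)
    have h7 := (h1.symm.trans h6).add_right_cancel' 1
    rw [Nat.modEq_zero_iff_dvd, hp.out.dvd_mul] at h7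
    rcases h7 with h7 | h7
    · rw [H31.BR.Arith.dvd_sub_one hq, he] at h7
      have := Nat.le_of_dvd hf h7
      omega
    · rcases Nat.eq_zero_or_pos (k - 1) with h8 | h8
      · rw [h8, pow_zero] at h7
        have := (Nat.prime_dvd_prime_iff_eq hp.out Nat.prime_two).1 h7
        exact hp2 this
      · rw [H31.BR.Arith.dvd_add_one] at h7
        have h9 : (Nat.card F : ZMod p) ^ (2 * (k - 1)) = 1 := by
          rw [mul_comm, pow_mul, h7]
          ring
        have h10 := Nat.le_of_dvd (by omega) (orderOf_dvd_of_pow_eq_one h9)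
        omega
  · have h2 := not_dvd_of_sim P (Q' := minusForm k F a b) (nondeg_minusForm k F a b hab) (by rwa [coe_minusForm])
    apply h2
    have h3 := S0288.result (F := F) (q := Nat.card F) (Nat.card_eq_fintype_card.symm) (k + 1) (by omega) a b hab
    rw [Nat.add_sub_cancel] at h3
    rw [coe_minusForm, h3]
    refine Dvd.dvd.mul_right (Dvd.dvd.mul_left ?_ _) _
    have h4 := H31.BR.Arith.dvd_add_one_of (p := p) he hf (t := 1) odd_one
    rw [one_mul] at h4
    rwa [show k + 1 = f by omega]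

end Sylow

section Cover

variable {F : Type} [Field F] [Fintype F] {ι κ : Type} [Fintype ι] [DecidableEq ι] [Fintype κ] [DecidableEq κ]

/-- the data of the unitary type: `POmega F Q'` is a quotient of a subgroup of `POmega F Q` by a `p'`-group, and
`Omega F Q'` has a `p`-subgroup without fixed vectors and without invariant totally singular subspaces -/
structure Cover (p : ℕ) (Q : QuadraticForm F (ι → F)) (Q' : QuadraticForm F (κ → F)) : Prop where
  hom : ∃ φ : Omega F ⇑Q' →* POmega F ⇑Q, φ.ker ≤ Subgroup.center (Omega F ⇑Q')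
  sub : ∃ (H : Subgroup (POmega F ⇑Q)) (π : H →* POmega F ⇑Q'), Function.Surjective π ∧ ¬ p ∣ Nat.card π.ker
  grp : ∃ D : Subgroup (Omega F ⇑Q'), IsPGroup p D ∧
    (∀ U : Submodule F (κ → F), (∀ d ∈ D, ∀ v ∈ U, omRho Q' d v ∈ U) → (quadPol Q').TI U → U = ⊥) ∧
    ∀ v, (∀ d ∈ D, omRho Q' d v = v) → v = 0

variable {Q : QuadraticForm F (ι → F)} {Q' : QuadraticForm F (κ → F)} {w ε : ℕ} {p : ℕ} [hp : Fact p.Prime]

/-- the homomorphism `Omega F Q' →* Omega F Q` of an embedding -/
noncomputable def emb (hG : Good Q) (hG' : Good Q') (e : Emb Q Q') : Omega F ⇑Q' →* Omega F ⇑Q :=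
  (MonoidHom.ofInjective (omRho_injective Q)).symm.toMonoidHom.comp
    ((e.ext.comp (omRho Q')).codRestrict (omRho Q).range (fun d => by
      rw [omRho_range_E hG]
      exact e.ext_mem_E (omRho_mem_E hG' d)))

theorem omRho_emb (hG : Good Q) (hG' : Good Q') (e : Emb Q Q') (d : Omega F ⇑Q') :
    omRho Q (emb hG hG' e d) = e.ext (omRho Q' d) := by
  have h1 := MonoidHom.apply_ofInjective_symm (omRho_injective Q)
    (((e.ext.comp (omRho Q')).codRestrict (omRho Q).range (fun d => by
      rw [omRho_range_E hG]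
      exact e.ext_mem_E (omRho_mem_E hG' d))) d)
  exact h1

theorem emb_injective (hG : Good Q) (hG' : Good Q') (e : Emb Q Q') : Function.Injective (emb hG hG' e) := by
  intro a b hab
  apply omRho_injective Q'
  apply e.ext_injective
  rw [← omRho_emb hG hG', ← omRho_emb hG hG', hab]

theorem exists_sub {G K : Type*} [Group G] [Group K] [Finite K] (hp2 : p ≠ 2) (φ : G →* K)
    (hφ : φ.ker ≤ Subgroup.center G) (hsq : ∀ z ∈ Subgroup.center G, z * z = 1) :
    ∃ (H : Subgroup K) (π : H →* G ⧸ Subgroup.center G), Function.Surjective π ∧ ¬ p ∣ Nat.card π.ker := by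
  have hs := φ.rangeRestrict_surjective
  let π : φ.range →* G ⧸ Subgroup.center G := φ.rangeRestrict.liftOfSurjective hs
    ⟨QuotientGroup.mk' (Subgroup.center G), by rw [MonoidHom.ker_rangeRestrict, QuotientGroup.ker_mk']; exact hφ⟩
  have hπ : ∀ g, π (φ.rangeRestrict g) = QuotientGroup.mk' (Subgroup.center G) g := fun g =>
    MonoidHom.liftOfRightInverse_comp_apply _ _ _ _ g
  refine ⟨φ.range, π, ?_, ?_⟩
  · intro x
    obtain ⟨g, rfl⟩ := QuotientGroup.mk'_surjective _ x
    exact ⟨_, hπ g⟩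
  · refine not_dvd_of_sq hp2 ?_
    rintro ⟨x, hx⟩
    obtain ⟨g, rfl⟩ := hs x
    rw [MonoidHom.mem_ker, hπ, QuotientGroup.mk'_apply, QuotientGroup.eq_one_iff] at hx
    apply Subtype.ext
    show φ.rangeRestrict g * φ.rangeRestrict g = 1
    rw [← map_mul, hsq g hx, map_one]

theorem cover_of_sim (hp2 : p ≠ 2) (h : Typ Q w ε) (hG : Good Q) (hG' : Good Q') {f : ℕ} (hf : 0 < f)
    (he : orderOf (Nat.card F : ZMod p) = 2 * f) (P : Sylow p (O Q)) (hc : (Nat.card (syl P) : F) ≠ 0)
    (hs : Sim (Q.comp (mv Q (syl P)).subtype) ⇑Q') : Cover p Q Q' := by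
  obtain ⟨c, hc0, j, hj⟩ := hs
  obtain ⟨e, hej⟩ : ∃ e : Emb Q Q', ∀ x, e.j x = (j x : ι → F) :=
    ⟨ofLin ((mv Q (syl P)).subtype ∘ₗ j.toLinearMap) c hc0 hj hG'.nondeg, fun _ => rfl⟩
  have hker : ((QuotientGroup.mk' (Subgroup.center (Omega F ⇑Q))).comp (emb hG hG' e)).ker ≤
      Subgroup.center (Omega F ⇑Q') := by
    intro d hd
    rw [MonoidHom.mem_ker, MonoidHom.comp_apply, QuotientGroup.mk'_apply, QuotientGroup.eq_one_iff,
      Subgroup.mem_center_iff] at hd
    rw [Subgroup.mem_center_iff]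
    intro d'
    apply emb_injective hG hG' e
    rw [map_mul, map_mul]
    exact hd _
  have hfin : Finite (POmega F ⇑Q) := inferInstance
  refine ⟨⟨_, hker⟩, exists_sub hp2 _ hker fun z hz => center_sq hG' hz, ?_⟩
  -- the group
  let D : Subgroup (Omega F ⇑Q') :=
    { carrier := {d | ∃ g ∈ syl P, ∀ x, g (e.j x) = e.j (omRho Q' d x)}
      mul_mem' := by
        rintro a b ⟨g, hg, h1⟩ ⟨g', hg', h1'⟩
        refine ⟨g * g', (syl P).mul_mem hg hg', fun x => ?_⟩
        show g (g' (e.j x)) = _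
        rw [h1', h1, map_mul]
        rfl
      one_mem' := ⟨1, (syl P).one_mem, fun x => by rw [map_one]; rfl⟩
      inv_mem' := by
        rintro a ⟨g, hg, h1⟩
        refine ⟨g⁻¹, (syl P).inv_mem hg, fun x => ?_⟩
        apply g.injective
        rw [h1]
        have h2 : g (g⁻¹ (e.j x)) = e.j x := LinearEquiv.apply_symm_apply g _
        have h3 : omRho Q' a (omRho Q' a⁻¹ x) = x := by
          show (omRho Q' a * omRho Q' a⁻¹) x = x
          rw [← map_mul, mul_inv_cancel, map_one]
          rfl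
        rw [h2, h3] }
  have hD : ∀ g ∈ syl P, ∃ d ∈ D, ∀ x, g (e.j x) = e.j (omRho Q' d x) := by
    intro g hg
    have hmap : (mv Q (syl P)).map (g : (ι → F) →ₗ[F] (ι → F)) = mv Q (syl P) := by
      apply map_eq_of_le
      rintro _ ⟨x, hx, rfl⟩
      exact map_mem_mv (syl_le P) hg hx
    obtain ⟨g', hg'⟩ : ∃ g' : (κ → F) ≃ₗ[F] (κ → F), ∀ x, g (e.j x) = e.j (g' x) := by
      refine ⟨j.trans ((g.ofSubmodules _ _ hmap).trans j.symm), fun x => ?_⟩
      rw [hej, hej, LinearEquiv.trans_apply, LinearEquiv.trans_apply, LinearEquiv.apply_symm_apply,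
        LinearEquiv.ofSubmodules_apply]
    have hgO : g' ∈ O Q' := by
      intro x
      have h1 : Q (g (e.j x)) = Q (e.j x) := mem_O.1 (syl_le P hg) _
      rw [hg', e.hQ, e.hQ] at h1
      exact mul_left_cancel₀ e.hc h1
    have hpow : ∀ (n : ℕ) x, (g ^ n) (e.j x) = e.j ((g' ^ n) x) := by
      intro n
      induction n with
      | zero => intro x; rfl
      | succ n ih =>
        intro x
        rw [pow_succ, pow_succ]
        show (g ^ n) (g (e.j x)) = e.j ((g' ^ n) (g' x))
        rw [hg', ih]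
    obtain ⟨k, hk⟩ := syl_isPGroup P ⟨g, hg⟩
    have hk' : g ^ p ^ k = 1 := congrArg Subtype.val hk
    have hk2 : g' ^ p ^ k = 1 := by
      ext1 x
      apply e.j_injective
      rw [← hpow, hk']
      rfl
    have hodd : Odd (p ^ k) := (hp.out.odd_of_ne_two hp2).pow
    obtain ⟨s, hs⟩ := hodd
    have hE : g' ∈ E Q' := by
      have h1 : g' = g' ^ (s + 1) * g' ^ (s + 1) := by
        rw [← pow_add, show s + 1 + (s + 1) = p ^ k + 1 by omega, pow_succ, hk2, one_mul]
      rw [h1]
      exact sq_mem_E hG' ((O Q').pow_mem hgO _)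
    obtain ⟨d, hd⟩ := exists_om hG' hE
    have h2 : ∀ x, g (e.j x) = e.j (omRho Q' d x) := fun x => by rw [hd, hg']
    exact ⟨d, ⟨g, hg, h2⟩, h2⟩
  refine ⟨D, ?_, ?_, ?_⟩
  · rintro ⟨d, g, hg, hgd⟩
    obtain ⟨k, hk⟩ := syl_isPGroup P ⟨g, hg⟩
    have hk' : g ^ p ^ k = 1 := congrArg Subtype.val hk
    refine ⟨k, Subtype.ext ?_⟩
    apply omRho_injective Q'
    have hpow : ∀ (n : ℕ) x, (g ^ n) (e.j x) = e.j (omRho Q' (d ^ n) x) := by
      intro n
      induction n with
      | zero => intro x; rw [pow_zero, pow_zero, map_one]; rfl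
      | succ n ih =>
        intro x
        rw [pow_succ, pow_succ, map_mul]
        show (g ^ n) (g (e.j x)) = e.j (omRho Q' (d ^ n) (omRho Q' d x))
        rw [hgd, ih]
    ext1 x
    apply e.j_injective
    show e.j (omRho Q' (d ^ p ^ k) x) = e.j (omRho Q' 1 x)
    rw [← hpow, hk', map_one]
    rfl
  · intro U hU hTI
    have h1 : U.map e.j = ⊥ := by
      have hsub : ∀ v ∈ U.map e.j, v ∈ mv Q (syl P) := by
        rintro _ ⟨x, -, rfl⟩
        rw [hej]
        exact (j x).2
      refine no_ti h hf he P ?_ ?_ ?_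
      · refine ⟨?_, ?_⟩
        · rintro _ ⟨x, hx, rfl⟩
          have h2 : Q' x = 0 := hTI.1 x hx
          show Q (e.j x) = 0
          rw [e.hQ, h2, mul_zero]
        · rintro _ ⟨x, hx, rfl⟩ _ ⟨y, hy, rfl⟩
          have h2 : polar Q' x y = 0 := hTI.2 x hx y hy
          show polar Q (e.j x) (e.j y) = 0
          rw [e.polar_j, h2, mul_zero]
      · rintro g hg _ ⟨x, hx, rfl⟩
        obtain ⟨d, hd, hd'⟩ := hD g hg
        rw [hd']
        exact ⟨_, hU d hd x hx, rfl⟩
      · intro v hv hfix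
        exact eq_zero_of_fixed h.nondeg (syl_le P) hc (hsub v hv) hfix
    rw [Submodule.eq_bot_iff]
    intro x hx
    have h2 : e.j x ∈ U.map e.j := ⟨x, hx, rfl⟩
    rw [h1, Submodule.mem_bot] at h2
    apply e.j_injective
    rw [h2, map_zero]
  · intro v hv
    apply e.j_injective
    rw [map_zero]
    have h1 : e.j v ∈ mv Q (syl P) := by
      rw [hej]
      exact (j v).2
    refine eq_zero_of_fixed h.nondeg (syl_le P) hc h1 fun g hg => ?_
    obtain ⟨d, hd, hd'⟩ := hD g hg
    rw [hd', hv d hd]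

theorem cast_ne_zero {n : ℕ} (hn : orderOf (Nat.card F : ZMod p) = n) (h0 : 0 < n) : (p : F) ≠ 0 := by
  intro h
  have h1 : ringChar F ∣ p := (ringChar.spec F p).1 h
  obtain ⟨k, hk, hk'⟩ := FiniteField.card F (ringChar F)
  have h2 := (Nat.prime_dvd_prime_iff_eq hk hp.out).1 h1
  have h3 : (Nat.card F : ZMod p) = 0 := by
    rw [ZMod.natCast_eq_zero_iff, Nat.card_eq_fintype_card, hk', h2]
    exact dvd_pow_self p k.ne_zero
  rw [h3] at hn
  have h4 : (0 : ZMod p) ^ orderOf (0 : ZMod p) = 1 := pow_orderOf_eq_one 0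
  rw [hn, zero_pow h0.ne'] at h4
  exact zero_ne_one h4

/-- **the unitary type** (`orderOf q = 2 f` modulo `p`) -/
theorem exists_unitary (hp2 : p ≠ 2) (h : Typ Q w ε) {f : ℕ} (hf : 0 < f)
    (he : orderOf (Nat.card F : ZMod p) = 2 * f) (hN : 2 * f + 8 ≤ Fintype.card ι) :
    (∃ m : ℕ, 4 ≤ m ∧ 2 * m ≤ Fintype.card ι ∧ Fintype.card ι ≤ 2 * m + 2 * f ∧ 2 * f ∣ 2 * m ∧
      (Fintype.card ι = 2 * m + 2 * f → ¬ p ∣ (Nat.card F ^ w - 1) * (Nat.card F ^ (w - 1 + ε) + 1)) ∧
      Cover p Q (plusForm m F)) ∨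
    (∃ (m : ℕ) (a b : F), (∀ z₁ z₂ : F, z₁ ^ 2 + a * z₁ * z₂ + b * z₂ ^ 2 = 0 → z₁ = 0 ∧ z₂ = 0) ∧
      4 ≤ m ∧ 2 * m ≤ Fintype.card ι ∧ Fintype.card ι ≤ 2 * m + 2 * f ∧ 2 * f ∣ 2 * m ∧
      (Fintype.card ι = 2 * m + 2 * f → ¬ p ∣ (Nat.card F ^ w - 1) * (Nat.card F ^ (w - 1 + ε) + 1)) ∧
      Cover p Q (minusForm (m - 1) F a b)) := by
  have hG : Good Q := h.good (by omega)
  have hpF : (p : F) ≠ 0 := cast_ne_zero he (by omega)
  let P : Sylow p (O Q) := default
  have hc : (Nat.card (syl P) : F) ≠ 0 := by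
    obtain ⟨n, hn⟩ := IsPGroup.iff_card.1 (syl_isPGroup P)
    rw [hn]
    push_cast
    exact pow_ne_zero n hpF
  have h1 := finrank_fx_le h.nondeg hf he P hc
  have h2 := finrank_pp h.nondeg (fx (syl P))
  rw [Module.finrank_fintype_fun_eq_card] at h2
  have h3 : 2 * f ∣ finrank F (mv Q (syl P)) := by
    rw [← he]
    exact order_dvd_finrank (syl_isPGroup P) _ (fun g hg v hv => map_mem_mv (syl_le P) hg hv)
      fun v hv hfix => eq_zero_of_fixed h.nondeg (syl_le P) hc hv hfix
  have hnd : Nondeg (Q.comp (mv Q (syl P)).subtype) := by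
    intro x hx
    apply Subtype.ext
    apply nondeg_mv h.nondeg (syl_le P) hc x.2
    intro y hy
    exact hx ⟨y, hy⟩
  have h4 : finrank F (mv Q (syl P)) + finrank F (fx (syl P)) = Fintype.card ι := h2
  have h5 : 2 ∣ finrank F (mv Q (syl P)) := (dvd_mul_right 2 f).trans h3
  rcases normal_form _ hnd rfl with ⟨k, hk, hs⟩ | ⟨k, hk, hs⟩ | ⟨k, hk, a, b, hab, hs⟩
  · omega
  · left
    refine ⟨k, by omega, by omega, by omega, by rw [← hk]; exact h3,
      fun hcd => not_dvd_sing hp2 h hf he P hc (by omega), ?_⟩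
    refine cover_of_sim hp2 h hG ((typ_plus (F := F) (m := k) (by omega)).good ?_) hf he P hc (by rwa [coe_plusForm])
    rw [Fintype.card_sum, Fintype.card_fin]
    omega
  · right
    refine ⟨k + 1, a, b, hab, by omega, by omega, by omega, by rw [show 2 * (k + 1) = 2 * k + 2 by ring, ← hk]; exact h3,
      fun hcd => not_dvd_sing hp2 h hf he P hc (by omega), ?_⟩
    have h6 : 5 ≤ Fintype.card ((Fin (k + 1 - 1) ⊕ Fin (k + 1 - 1)) ⊕ Fin 2) := by
      rw [Fintype.card_sum, Fintype.card_sum, Fintype.card_fin, Fintype.card_fin]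
      omega
    exact cover_of_sim hp2 h hG ((typ_minus F a b hab (m := k + 1 - 1) (by omega)).good h6) hf he P hc
      (by rw [coe_minusForm]; exact hs)

end Cover

end Cfsg.Agent.H410.BD
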